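import Mathlib
import Cfsg.Prelude.Def_LieExceptional
import Cfsg.Agent.Lib.Helper18.AutPSL2.Out

set_option autoImplicit false

namespace Cfsg.Agent.Lib.Helper76.S3O

open Matrix MatrixGroups Cfsg.Agent.Lib.Helper18.AutPSL2 Cfsg.Agent.Lib.Helper46

theorem pgl_of_index_two {G : Type*} [Group G] [Finite G] {K : Type*} [Field K] [Fintype K]
    {p f : ℕ} (hp : p.Prime) (hf : Odd f) (hK : Fintype.card K = p ^ f) (h2 : (2 : K) ≠ 0)
    (M : Subgroup G) (hM : M.index = 2)
    (e : ↥M ≃* Matrix.ProjectiveSpecialLinearGroup (Fin 2) K)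
    (hc : ∀ g : G, (∀ m ∈ M, g * m = m * g) → g = 1) :
    Nonempty (G ≃* Matrix.ProjGenLinGroup (Fin 2) K) := by
  have : Fact p.Prime := ⟨hp⟩
  have hchar : CharP K p := charP_of_card_eq_prime_pow hK
  let _ : Algebra (ZMod p) K := ZMod.algebra K p
  have hA : Finite (MulAut (ProjectiveSpecialLinearGroup (Fin 2) K)) :=
    Finite.of_injective (fun α => (α : ProjectiveSpecialLinearGroup (Fin 2) K →
      ProjectiveSpecialLinearGroup (Fin 2) K)) DFunLike.coe_injective
  obtain ⟨τ, hτs, hτk⟩ := exists_hom_of_factorisation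
    (cG : GL (Fin 2) K →* _) (Fld (F := K) (ZMod p))
    (by
      intro α
      obtain ⟨g, σ, h⟩ := exists_eq_cG_mul_fld p α
      refine ⟨g, AlgEquiv.ofRingEquiv (f := σ) (fun r => ?_), h⟩
      have : (σ : K →+* K).comp (algebraMap (ZMod p) K) = algebraMap (ZMod p) K :=
        Subsingleton.elim _ _
      exact congrArg (fun φ : ZMod p →+* K => φ r) this)
    (by
      intro σ h
      exact ⟨_, fld_mul_cG σ.toRingEquiv h⟩)
    (by
      intro g σ h
      have := (rigid g σ.toRingEquiv h).1
      ext t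
      exact this t)
  have hfin : Module.finrank (ZMod p) K = f := by
    have h1 := Module.card_eq_pow_finrank (K := ZMod p) (V := K)
    rw [hK, ZMod.card] at h1
    exact (Nat.pow_right_injective (Fact.out : p.Prime).two_le h1).symm
  have hΓ : Nat.card (K ≃ₐ[ZMod p] K) = f := by
    rw [← Nat.card_congr (Equiv.ofBijective _
      (FiniteField.bijective_frobeniusAlgEquivOfAlgebraic_pow (ZMod p) K)), Nat.card_eq_fintype_card,
      Fintype.card_fin, hfin]
  have hq1 : 1 < Fintype.card K := Fintype.one_lt_card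
  have hMn : M.Normal := Subgroup.normal_of_index_eq_two hM
  let φ : G →* MulAut (ProjectiveSpecialLinearGroup (Fin 2) K) :=
    (MulAut.congr e).toMonoidHom.comp (MulAut.conjNormal (H := M))
  have hφ : ∀ (g : G) (x : ProjectiveSpecialLinearGroup (Fin 2) K),
      φ g x = e (MulAut.conjNormal g (e.symm x)) := fun g x => rfl
  have hinj : Function.Injective φ := by
    rw [injective_iff_map_eq_one]
    intro g hg
    apply hc
    intro m hm
    have h1 := congrArg (fun α => α (e ⟨m, hm⟩)) hg
    simp only [hφ, MulEquiv.symm_apply_apply, MulAut.one_apply] at h1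
    have h3 := congrArg Subtype.val (e.injective h1)
    rw [MulAut.conjNormal_apply] at h3
    exact mul_inv_eq_iff_eq_mul.1 h3
  have hMr : ∀ m ∈ M, φ m ∈ (cG : GL (Fin 2) K →* _).range := by
    intro m hm
    obtain ⟨x, hx⟩ := pm_surjective (e ⟨m, hm⟩)
    refine ⟨SpecialLinearGroup.toGL x, ?_⟩
    rw [cG_toGL, hx]
    ext y
    rw [hφ, MulAut.conj_apply]
    have : MulAut.conjNormal m (e.symm y) = ⟨m, hm⟩ * e.symm y * ⟨m, hm⟩⁻¹ := by
      apply Subtype.ext
      rw [MulAut.conjNormal_apply]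
      rfl
    rw [this, map_mul, map_mul, map_inv, MulEquiv.apply_symm_apply]
  have hr : ∀ g : G, φ g ∈ (cG : GL (Fin 2) K →* _).range := by
    intro g
    rw [← hτk, MonoidHom.mem_ker]
    have h1 : τ (φ g) ^ 2 = 1 := by
      rw [← map_pow, ← map_pow, ← MonoidHom.mem_ker, hτk]
      exact hMr _ (Subgroup.sq_mem_of_index_two hM g)
    have h3 : τ (φ g) ^ f = 1 := by
      rw [← hΓ]; exact pow_card_eq_one'
    have h4 := pow_gcd_eq_one.2 ⟨h1, h3⟩
    have h5 : Nat.gcd 2 f = 1 := Nat.coprime_two_left.2 hf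
    rwa [h5, pow_one] at h4
  -- cardinalities
  have hcard : Nat.card G = Nat.card (cG : GL (Fin 2) K →* _).range := by
    have h1 := card_range_cG (F := K)
    have h3 := Cfsg.Agent.Lib.Helper6.card_PSL_field (F := K) 2 (by norm_num)
    have h4 : Nat.card (GL (Fin 2) K) =
        ∏ i : Fin 2, (Fintype.card K ^ 2 - Fintype.card K ^ (i : ℕ)) := by
      rw [Matrix.card_GL_field]
    rw [← h4, ← h1] at h3
    have h5 : 0 < Fintype.card K - 1 := by omega
    have h6 : Nat.gcd 2 (Fintype.card K - 1) = 2 := by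
      have hodd : Odd (Fintype.card K) := by
        rw [← Nat.not_even_iff_odd]
        intro hev
        have h8 := FiniteField.even_card_iff_char_two.2 (Nat.even_iff.1 hev)
        have h9 := ringChar.Nat.cast_ringChar (R := K)
        rw [h8] at h9
        exact h2 (by exact_mod_cast h9)
      obtain ⟨k, hk⟩ := hodd
      rw [hk]
      simp
    rw [h6] at h3
    have h7 := Subgroup.card_mul_index M
    rw [hM, Nat.card_congr e.toEquiv] at h7
    apply Nat.eq_of_mul_eq_mul_right h5
    rw [← h3, ← h7]; ring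
  let ψ : G →* (cG : GL (Fin 2) K →* _).range := φ.codRestrict _ hr
  have hψi : Function.Injective ψ := by
    intro a b hab
    exact hinj (congrArg Subtype.val hab)
  have hψb : Function.Bijective ψ := by
    rw [Nat.bijective_iff_injective_and_card]
    exact ⟨hψi, hcard⟩
  have e1 : G ≃* (cG : GL (Fin 2) K →* _).range := MulEquiv.ofBijective ψ hψb
  have e2 := QuotientGroup.quotientKerEquivRange (cG : GL (Fin 2) K →* _)
  have e3 : GL (Fin 2) K ⧸ (cG : GL (Fin 2) K →* _).ker ≃* GL (Fin 2) K ⧸ Subgroup.center (GL (Fin 2) K) :=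
    QuotientGroup.quotientMulEquivOfEq ker_cG
  exact ⟨(e1.trans e2.symm).trans e3⟩

end Cfsg.Agent.Lib.Helper76.S3O
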