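import Mathlib

set_option autoImplicit false

/-!
Sharply triply transitive groups of degree `p^f + 1`, `p` odd, `f` odd (ladder S3O): definitions.
-/

namespace Cfsg.Agent.Lib.Helper76.S3O

/-- elementwise triple transitivity -/
def T3 (G Ω : Type*) [Group G] [MulAction G Ω] : Prop :=
  ∀ a b c a' b' c' : Ω, a ≠ b → a ≠ c → b ≠ c → a' ≠ b' → a' ≠ c' → b' ≠ c' →
    ∃ g : G, g • a = a' ∧ g • b = b' ∧ g • c = c'

/-- only the identity fixes three points -/
def S3 (G Ω : Type*) [Group G] [MulAction G Ω] : Prop :=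
  ∀ g : G, ∀ a b c : Ω, a ≠ b → a ≠ c → b ≠ c → g • a = a → g • b = b → g • c = c → g = 1

end Cfsg.Agent.Lib.Helper76.S3O
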