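import Mathlib
import Cfsg.Agent.Lib.Helper76.S3O.Defs

set_option autoImplicit false

namespace Cfsg.Agent.Lib.Helper76.S3O

open MulAction

theorem card_compl_pair {Ω : Type*} [Finite Ω] {a b : Ω} (hab : a ≠ b) :
    Nat.card {x : Ω // x ≠ a ∧ x ≠ b} + 2 = Nat.card Ω := by
  classical
  have := Fintype.ofFinite Ω
  rw [Nat.card_eq_fintype_card, Nat.card_eq_fintype_card, Fintype.card_subtype]
  have h1 : (Finset.univ.filter (fun x : Ω => x ≠ a ∧ x ≠ b)) = Finset.univ \ {a, b} := by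
    ext x
    simp [not_or]
  rw [h1, Finset.card_sdiff_of_subset (Finset.subset_univ _), Finset.card_pair hab,
    Finset.card_univ]
  have h2 : ({a, b} : Finset Ω).card ≤ Fintype.card Ω := Finset.card_le_univ _
  rw [Finset.card_pair hab] at h2
  omega

/-- [CARDG] the order of a two-point stabiliser. -/
theorem card_stabG {G Ω : Type*} [Group G] [MulAction G Ω] [Finite Ω]
    (h3t : T3 G Ω) (h3 : S3 G Ω) (h4 : 3 ≤ Nat.card Ω) {a b : Ω} (hab : a ≠ b) :
    Nat.card ↥(stabilizer G a ⊓ stabilizer G b) + 2 = Nat.card Ω := by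
  classical
  rw [← card_compl_pair hab]
  congr 1
  have hne : Nonempty {x : Ω // x ≠ a ∧ x ≠ b} := by
    have h5 := card_compl_pair hab
    have h6 : 0 < Nat.card {x : Ω // x ≠ a ∧ x ≠ b} := by omega
    exact (Nat.card_pos_iff.mp h6).1
  obtain ⟨⟨c, hca, hcb⟩⟩ := hne
  have hmem : ∀ g : G, g ∈ stabilizer G a ⊓ stabilizer G b ↔ g • a = a ∧ g • b = b := by
    intro g
    rw [Subgroup.mem_inf, mem_stabilizer_iff, mem_stabilizer_iff]
  apply Nat.card_congr
  refine Equiv.ofBijective (fun g => ⟨(g : G) • c, ?_, ?_⟩) ⟨?_, ?_⟩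
  · intro h
    apply hca
    have h1 := ((hmem _).mp g.2).1
    exact smul_left_cancel _ (h.trans h1.symm)
  · intro h
    apply hcb
    have h1 := ((hmem _).mp g.2).2
    exact smul_left_cancel _ (h.trans h1.symm)
  · intro g g' hgg
    have h1 : (g : G) • c = (g' : G) • c := congrArg Subtype.val hgg
    have h2 := (hmem _).mp g.2
    have h2' := (hmem _).mp g'.2
    have h5 : (g' : G)⁻¹ * (g : G) = 1 := by
      apply h3 _ a b c hab hca.symm hcb.symm
      · rw [mul_smul, h2.1, inv_smul_eq_iff, h2'.1]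
      · rw [mul_smul, h2.2, inv_smul_eq_iff, h2'.2]
      · rw [mul_smul, h1, inv_smul_smul]
    apply Subtype.ext
    rw [inv_mul_eq_one] at h5
    exact h5.symm
  · rintro ⟨x, hxa, hxb⟩
    obtain ⟨g, h1, h2, h5⟩ := h3t a b c a b x hab hca.symm hcb.symm hab hxa.symm hxb.symm
    exact ⟨⟨g, (hmem _).mpr ⟨h1, h2⟩⟩, Subtype.ext h5⟩

end Cfsg.Agent.Lib.Helper76.S3O
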