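import Mathlib
import Cfsg.Agent.Lib.Helper76.S3O.Defs

set_option autoImplicit false

namespace Cfsg.Agent.Lib.Helper76.S3O

open MulAction

/-- [FOUR] a point outside any three given points. -/
theorem exists_fourth {Ω : Type*} [Finite Ω] (h4 : 4 ≤ Nat.card Ω) (x y z : Ω) :
    ∃ w : Ω, w ≠ x ∧ w ≠ y ∧ w ≠ z := by
  classical
  have := Fintype.ofFinite Ω
  rw [Nat.card_eq_fintype_card] at h4
  by_contra hcon
  push Not at hcon
  have h1 : (Finset.univ : Finset Ω) ⊆ {x, y, z} := by
    intro w _
    by_cases hx : w = x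
    · simp [hx]
    · by_cases hy : w = y
      · simp [hy]
      · simp [hcon w hx hy]
  have h2 := Finset.card_le_card h1
  have h3 : ({x, y, z} : Finset Ω).card ≤ 3 := Finset.card_le_three
  rw [Finset.card_univ] at h2
  omega

end Cfsg.Agent.Lib.Helper76.S3O
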