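import Mathlib
import Cfsg.Agent.Lib.Helper76.S3O.Defs
import Cfsg.Agent.Lib.Helper76.S3O.FOUR

set_option autoImplicit false

namespace Cfsg.Agent.Lib.Helper76.S3O

open MulAction

/-- [NLE] no two-point stabiliser lies in a subgroup of index two. -/
theorem stab_not_le {G Ω : Type*} [Group G] [MulAction G Ω] [Finite Ω]
    (h3t : T3 G Ω) (h4 : 4 ≤ Nat.card Ω) (M : Subgroup G) (hM : M.index = 2)
    {a b : Ω} (hab : a ≠ b) : ∃ h : G, h • a = a ∧ h • b = b ∧ h ∉ M := by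
  by_contra hcon
  push Not at hcon
  have hMn : M.Normal := Subgroup.normal_of_index_eq_two hM
  have hall : ∀ x y : Ω, x ≠ y → ∀ h : G, h • x = x → h • y = y → h ∈ M := by
    intro x y hxy h hx hy
    obtain ⟨w, hw1, hw2, -⟩ := exists_fourth h4 a b a
    obtain ⟨w', hw1', hw2', -⟩ := exists_fourth h4 x y x
    obtain ⟨g, hga, hgb, -⟩ := h3t a b w x y w' hab hw1.symm hw2.symm hxy hw1'.symm hw2'.symm
    have h1 : g⁻¹ * h * g ∈ M := hcon _
      (by rw [mul_smul, mul_smul, hga, hx, ← hga, inv_smul_smul])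
      (by rw [mul_smul, mul_smul, hgb, hy, ← hgb, inv_smul_smul])
    have h2 := hMn.conj_mem _ h1 g
    have h3 : g * (g⁻¹ * h * g) * g⁻¹ = h := by group
    rwa [h3] at h2
  have htop : ∀ g : G, g ∈ M := by
    intro g
    obtain ⟨h1, h1M, h1a⟩ : ∃ h1 ∈ M, h1 • a = g • a := by
      obtain ⟨c, hc1, hc2, -⟩ := exists_fourth h4 a (g • a) a
      obtain ⟨d, hd1, hd2, hd3⟩ := exists_fourth h4 a (g • a) c
      obtain ⟨h1, e1, e2, e3⟩ := h3t c d a c d (g • a) hd3.symm hc1 hd1 hd3.symm hc2 hd2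
      exact ⟨h1, hall c d hd3.symm h1 e1 e2, e3⟩
    have g1a : (h1⁻¹ * g) • a = a := by rw [mul_smul, ← h1a, inv_smul_smul]
    have hne : (h1⁻¹ * g) • b ≠ a := by
      intro h
      rw [← g1a] at h
      exact hab (smul_left_cancel _ h).symm
    obtain ⟨h2, h2M, h2a, h2b⟩ : ∃ h2 ∈ M, h2 • a = a ∧ h2 • b = (h1⁻¹ * g) • b := by
      obtain ⟨e, he1, he2, he3⟩ := exists_fourth h4 a b ((h1⁻¹ * g) • b)
      obtain ⟨h2, e1, e2, e3⟩ := h3t a e b a e ((h1⁻¹ * g) • b) he1.symm hab he2 he1.symm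
        hne.symm he3
      exact ⟨h2, hall a e he1.symm h2 e1 e2, e1, e3⟩
    have h3M : h2⁻¹ * (h1⁻¹ * g) ∈ M := hcon _
      (by rw [mul_smul, g1a, inv_smul_eq_iff, h2a])
      (by rw [mul_smul, ← h2b, inv_smul_smul])
    have h5 : g = h1 * (h2 * (h2⁻¹ * (h1⁻¹ * g))) := by group
    rw [h5]
    exact M.mul_mem h1M (M.mul_mem h2M h3M)
  have h6 : M = ⊤ := by
    rw [eq_top_iff]
    intro g _
    exact htop g
  rw [h6, Subgroup.index_top] at hM
  omega

end Cfsg.Agent.Lib.Helper76.S3O
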