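import Mathlib
import Cfsg.Agent.Lib.Helper76.S3O.Defs
import Cfsg.Agent.Lib.Helper76.S3O.NLE
import Cfsg.Agent.Lib.Helper76.S3O.CARDG

set_option autoImplicit false

namespace Cfsg.Agent.Lib.Helper76.S3O

open MulAction

/-- [CARDM] the order of a two-point stabiliser in the subgroup of index two. -/
theorem card_stabM {G Ω : Type*} [Group G] [MulAction G Ω] [Finite Ω]
    (h3t : T3 G Ω) (h3 : S3 G Ω) (h4 : 4 ≤ Nat.card Ω) (M : Subgroup G) (hM : M.index = 2)
    {a b : Ω} (hab : a ≠ b) :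
    2 * Nat.card ↥(stabilizer ↥M a ⊓ stabilizer ↥M b) + 2 = Nat.card Ω := by
  classical
  have hMn : M.Normal := Subgroup.normal_of_index_eq_two hM
  have hmem : ∀ g : G, g ∈ stabilizer G a ⊓ stabilizer G b ↔ g • a = a ∧ g • b = b := by
    intro g
    rw [Subgroup.mem_inf, mem_stabilizer_iff, mem_stabilizer_iff]
  have hmem' : ∀ g : ↥M, g ∈ stabilizer ↥M a ⊓ stabilizer ↥M b ↔
      (g : G) • a = a ∧ (g : G) • b = b := by
    intro g
    rw [Subgroup.mem_inf, mem_stabilizer_iff, mem_stabilizer_iff]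
    rfl
  have h1 : M.relIndex (stabilizer G a ⊓ stabilizer G b) ∣ 2 := by
    rw [← hM]
    exact Subgroup.relIndex_dvd_index_of_normal M _
  have h2 : M.relIndex (stabilizer G a ⊓ stabilizer G b) ≠ 1 := by
    rw [Ne, Subgroup.relIndex_eq_one]
    intro hle
    obtain ⟨h, ha, hb, hh⟩ := stab_not_le h3t h4 M hM hab
    exact hh (hle ((hmem h).mpr ⟨ha, hb⟩))
  have h5 : M.relIndex (stabilizer G a ⊓ stabilizer G b) = 2 :=
    ((Nat.dvd_prime Nat.prime_two).mp h1).resolve_left h2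
  have h6 := Subgroup.card_mul_index (M.subgroupOf (stabilizer G a ⊓ stabilizer G b))
  have h7 : (M.subgroupOf (stabilizer G a ⊓ stabilizer G b)).index = 2 := h5
  rw [h7] at h6
  have h8 : Nat.card ↥(stabilizer ↥M a ⊓ stabilizer ↥M b) =
      Nat.card ↥(M.subgroupOf (stabilizer G a ⊓ stabilizer G b)) := by
    apply Nat.card_congr
    exact
      { toFun := fun x => ⟨⟨(x : ↥M), (hmem _).mpr ((hmem' _).mp x.2)⟩,
          Subgroup.mem_subgroupOf.mpr (x : ↥M).2⟩
        invFun := fun y => ⟨⟨((y : ↥(stabilizer G a ⊓ stabilizer G b)) : G),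
          Subgroup.mem_subgroupOf.mp y.2⟩, (hmem' _).mpr ((hmem _).mp
            (y : ↥(stabilizer G a ⊓ stabilizer G b)).2)⟩
        left_inv := fun x => rfl
        right_inv := fun y => rfl }
  have h9 := card_stabG h3t h3 (by omega) hab
  rw [h8]
  omega

end Cfsg.Agent.Lib.Helper76.S3O
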