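import Mathlib
import Cfsg.Agent.Lib.Helper76.S3O.Defs
import Cfsg.Agent.Lib.Helper76.S3O.FOUR
import Cfsg.Agent.Lib.Helper76.S3O.CARDG
import Cfsg.Agent.Lib.Helper69.Zass

set_option autoImplicit false

namespace Cfsg.Agent.Lib.Helper76.S3O

open MulAction

theorem card_compl_point {Ω : Type*} [Finite Ω] (a : Ω) :
    Nat.card {x : Ω // x ≠ a} + 1 = Nat.card Ω := by
  classical
  have := Fintype.ofFinite Ω
  rw [Nat.card_eq_fintype_card, Nat.card_eq_fintype_card, Fintype.card_subtype_compl,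
    Fintype.card_subtype_eq]
  have : 0 < Fintype.card Ω := Fintype.card_pos_iff.mpr ⟨a⟩
  omega

/-- [KER] the Frobenius kernel of a point stabiliser: abelian, inside `M`. -/
theorem exists_kernel {G Ω : Type*} [Group G] [Finite G] [MulAction G Ω] [Finite Ω]
    (h3t : T3 G Ω) (h3 : S3 G Ω) (heven : Even (Nat.card Ω)) (h4 : 4 ≤ Nat.card Ω)
    (M : Subgroup G) (hM : M.index = 2) (a : Ω) :
    ∃ K : Subgroup G, K ≤ M ∧ (∀ k ∈ K, k • a = a) ∧
      (∀ f : G, f • a = a → ∀ k ∈ K, f * k * f⁻¹ ∈ K) ∧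
      (∀ k ∈ K, k ≠ 1 → ∀ x, x ≠ a → k • x ≠ x) ∧
      (∀ x y, x ≠ a → y ≠ a → ∃ k ∈ K, k • x = y) ∧
      (∀ u ∈ K, ∀ v ∈ K, u * v = v * u) := by
  classical
  obtain ⟨b, hba, -, -⟩ := exists_fourth h4 a a a
  obtain ⟨c, hca, hcb, -⟩ := exists_fourth h4 a b a
  have hab : a ≠ b := hba.symm
  have hE := card_stabG h3t h3 (by omega) hab
  have hmem : ∀ g : G, g ∈ stabilizer G a ⊓ stabilizer G b ↔ g • a = a ∧ g • b = b := by
    intro g
    rw [Subgroup.mem_inf, mem_stabilizer_iff, mem_stabilizer_iff]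
  have hEeven : 2 ∣ Nat.card ↥(stabilizer G a ⊓ stabilizer G b) := by
    obtain ⟨k, hk⟩ := heven
    omega
  have : Fact (Nat.Prime 2) := ⟨Nat.prime_two⟩
  obtain ⟨t', ht'⟩ := exists_prime_orderOf_dvd_card' 2 hEeven
  obtain ⟨t, htE, rfl⟩ : ∃ t : G, ∃ h : t ∈ stabilizer G a ⊓ stabilizer G b, t' = ⟨t, h⟩ :=
    ⟨t'.1, t'.2, rfl⟩
  have hto : orderOf t = 2 := by
    rw [← ht']
    exact (Subgroup.orderOf_mk t htE).symm
  have ht1 : t ≠ 1 := by
    rintro rfl
    rw [orderOf_one] at hto
    omega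
  have htt : t * t = 1 := by
    rw [← pow_two, ← hto]
    exact pow_orderOf_eq_one t
  have htinv : t⁻¹ = t := inv_eq_of_mul_eq_one_left htt
  obtain ⟨hta, htb⟩ := (hmem t).mp htE
  have h2t : ∀ a b c d : Ω, a ≠ b → c ≠ d → ∃ g : G, g • a = c ∧ g • b = d := by
    intro a b c d hab hcd
    obtain ⟨w, hw1, hw2, -⟩ := exists_fourth h4 a b a
    obtain ⟨w', hw1', hw2', -⟩ := exists_fourth h4 c d c
    obtain ⟨g, hga, hgb, -⟩ := h3t a b w c d w' hab hw1.symm hw2.symm hcd hw1'.symm hw2'.symm
    exact ⟨g, hga, hgb⟩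
  obtain ⟨K, hKa, hKn, hKs, hKt⟩ := Cfsg.Agent.Lib.Helper69.Zass.exists_kernel h2t
    (fun g a b c hab hbc hac => h3 g a b c hab hac hbc) a b c hab hcb.symm hca.symm t ht1 hta htb
  refine ⟨K, ?_, hKa, hKn, hKs, hKt, ?_⟩
  · -- the order of `K` is odd
    have hcK : Nat.card K = Nat.card {x : Ω // x ≠ a} := by
      apply Nat.card_congr
      refine Equiv.ofBijective (fun k => ⟨(k : G) • b, ?_⟩) ⟨?_, ?_⟩
      · intro h
        apply hba
        exact smul_left_cancel _ (h.trans (hKa _ k.2).symm)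
      · intro k k' hkk
        have h1 : (k : G) • b = (k' : G) • b := congrArg Subtype.val hkk
        by_contra hne
        have h5 : (k' : G)⁻¹ * (k : G) ≠ 1 := by
          intro h
          rw [inv_mul_eq_one] at h
          exact hne (Subtype.ext h.symm)
        apply hKs _ (K.mul_mem (K.inv_mem k'.2) k.2) h5 b hba
        rw [mul_smul, h1, inv_smul_smul]
      · rintro ⟨x, hx⟩
        obtain ⟨k, hk, hkx⟩ := hKt b x hba hx
        exact ⟨⟨k, hk⟩, Subtype.ext hkx⟩
    have h6 := card_compl_point a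
    obtain ⟨m, hm⟩ := heven
    intro k hk
    have h7 : k ^ Nat.card K = 1 := by
      have := pow_card_eq_one' (G := K) (x := ⟨k, hk⟩)
      exact congrArg Subtype.val this
    have h8 : k = (k ^ 2) ^ m := by
      rw [← pow_mul]
      have : 2 * m = Nat.card K + 1 := by omega
      rw [this, pow_succ, h7, one_mul]
    rw [h8]
    exact M.pow_mem (Subgroup.sq_mem_of_index_two hM k) m
  · -- conjugation by `t` is a fixed point free involution of `K`
    let φ : K →* K :=
      { toFun := fun k => ⟨t * k * t⁻¹, hKn t hta _ k.2⟩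
        map_one' := by
          apply Subtype.ext
          simp
        map_mul' := by
          intro x y
          apply Subtype.ext
          simp }
    have hφ : MonoidHom.FixedPointFree φ := by
      intro k hk
      have h1 : t * (k : G) * t⁻¹ = k := congrArg Subtype.val hk
      by_contra hne
      have hne' : (k : G) ≠ 1 := fun h => hne (Subtype.ext h)
      have hkb : (k : G) • b ≠ b := hKs _ k.2 hne' b hba
      have hkba : (k : G) • b ≠ a := by
        intro h
        apply hba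
        exact smul_left_cancel _ (h.trans (hKa _ k.2).symm)
      apply ht1
      apply h3 t a b ((k : G) • b) hab hkba.symm hkb.symm hta htb
      have h2 : t * (k : G) = k * t := mul_inv_eq_iff_eq_mul.mp h1
      rw [← mul_smul, h2, mul_smul, htb]
    have hinv : Function.Involutive φ := by
      intro k
      apply Subtype.ext
      show t * (t * (k : G) * t⁻¹) * t⁻¹ = k
      rw [htinv]
      calc t * (t * (k : G) * t) * t = (t * t) * k * (t * t) := by group
        _ = k := by rw [htt, one_mul, mul_one]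
    intro u hu v hv
    have := hφ.commute_all_of_involutive hinv ⟨u, hu⟩ ⟨v, hv⟩
    exact congrArg Subtype.val this.eq

end Cfsg.Agent.Lib.Helper76.S3O
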