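import Mathlib
import Cfsg.Agent.Lib.Helper76.S3O.Defs
import Cfsg.Agent.Lib.Helper76.S3O.FOUR
import Cfsg.Agent.Lib.Helper76.S3O.KER

set_option autoImplicit false

namespace Cfsg.Agent.Lib.Helper76.S3O

open MulAction

/-- [CENT] the centraliser of the subgroup of index two is trivial. -/
theorem centralizer_trivial {G Ω : Type*} [Group G] [Finite G] [MulAction G Ω] [Finite Ω]
    (h3t : T3 G Ω) (h3 : S3 G Ω) (heven : Even (Nat.card Ω)) (h4 : 4 ≤ Nat.card Ω)
    (M : Subgroup G) (hM : M.index = 2) (g : G) (hg : ∀ m ∈ M, g * m = m * g) : g = 1 := by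
  have hfix : ∀ a : Ω, g • a = a := by
    intro a
    obtain ⟨K, hKM, hKa, -, hKs, hKt, -⟩ := exists_kernel h3t h3 heven h4 M hM a
    obtain ⟨b, hba, -, -⟩ := exists_fourth h4 a a a
    obtain ⟨c, hca, hcb, -⟩ := exists_fourth h4 a b a
    obtain ⟨k, hk, hkb⟩ := hKt b c hba hca
    have hk1 : k ≠ 1 := by
      rintro rfl
      rw [one_smul] at hkb
      exact hcb hkb.symm
    by_contra hne
    apply hKs k hk hk1 (g • a) hne
    rw [← mul_smul, ← hg k (hKM hk), mul_smul, hKa k hk]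
  obtain ⟨b, hba, -, -⟩ := exists_fourth h4 (g • g • g • (Classical.choice
    (Nat.card_pos_iff.mp (by omega : 0 < Nat.card Ω)).1)) (Classical.choice
    (Nat.card_pos_iff.mp (by omega : 0 < Nat.card Ω)).1) (Classical.choice
    (Nat.card_pos_iff.mp (by omega : 0 < Nat.card Ω)).1)
  obtain ⟨c, hcb, -, -⟩ := exists_fourth h4 b b b
  obtain ⟨d, hdb, hdc, -⟩ := exists_fourth h4 b c b
  exact h3 g b c d hcb.symm hdb.symm hdc.symm (hfix b) (hfix c) (hfix d)

end Cfsg.Agent.Lib.Helper76.S3O
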