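import Mathlib
import Cfsg.Agent.Lib.Helper76.S3O.Defs
import Cfsg.Agent.Lib.Helper76.S3O.FOUR
import Cfsg.Agent.Lib.Helper76.S3O.NLE

set_option autoImplicit false

namespace Cfsg.Agent.Lib.Helper76.S3O

open MulAction

/-- [M2T] a subgroup of index two is doubly transitive. -/
theorem two_trans {G Ω : Type*} [Group G] [MulAction G Ω] [Finite Ω]
    (h3t : T3 G Ω) (h4 : 4 ≤ Nat.card Ω) (M : Subgroup G) (hM : M.index = 2)
    (a b c d : Ω) (hab : a ≠ b) (hcd : c ≠ d) : ∃ g ∈ M, g • a = c ∧ g • b = d := by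
  obtain ⟨w, hw1, hw2, -⟩ := exists_fourth h4 a b a
  obtain ⟨w', hw1', hw2', -⟩ := exists_fourth h4 c d c
  obtain ⟨g, hga, hgb, -⟩ := h3t a b w c d w' hab hw1.symm hw2.symm hcd hw1'.symm hw2'.symm
  by_cases hg : g ∈ M
  · exact ⟨g, hg, hga, hgb⟩
  · obtain ⟨h, ha, hb, hh⟩ := stab_not_le h3t h4 M hM hab
    refine ⟨g * h, ?_, by rw [mul_smul, ha, hga], by rw [mul_smul, hb, hgb]⟩
    rw [Subgroup.mul_mem_iff_of_index_two hM]
    exact ⟨fun h' => absurd h' hg, fun h' => absurd h' hh⟩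

end Cfsg.Agent.Lib.Helper76.S3O
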