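import Mathlib
import Cfsg.Agent.Lib.Helper76.S3O.Defs
import Cfsg.Agent.Lib.Helper76.S3O.FOUR

set_option autoImplicit false

namespace Cfsg.Agent.Lib.Helper76.S3O

open MulAction

/-- the abstract contradiction -/
theorem false_of_exp_two {N : Type*} [Group N] (hsq : ∀ x : N, x * x = 1) (φ : N →* N)
    (hφφ : ∀ x, φ (φ x) = x) (n m k : N) (hn : n ≠ 1) (hfix : ∀ y, φ y = y → y = 1 ∨ y = n)
    (hm : φ m = n * m) (hk1 : k ≠ 1) (hkn : k ≠ n) (hkm : k ≠ m) (hknm : k ≠ n * m) : False := by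
  have hinv : ∀ x : N, x⁻¹ = x := fun x => inv_eq_of_mul_eq_one_left (hsq x)
  have hcomm : ∀ x y : N, x * y = y * x := by
    intro x y
    have h1 := hsq (x * y)
    have h2 : x * y = (x * y)⁻¹ := (hinv _).symm
    rw [h2, mul_inv_rev, hinv, hinv]
  have key : ∀ x : N, x ≠ 1 → x ≠ n → φ x = n * x := by
    intro x hx1 hxn
    have h1 : φ (x * φ x) = x * φ x := by
      rw [map_mul, hφφ, hcomm]
    rcases hfix _ h1 with h | h
    · exfalso
      have h2 : φ x = x := by
        have := eq_inv_of_mul_eq_one_right h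
        rw [this, hinv]
      rcases hfix _ h2 with h3 | h3
      · exact hx1 h3
      · exact hxn h3
    · have h2 : φ x = x⁻¹ * n := by
        rw [← h, inv_mul_cancel_left]
      rw [h2, hinv, hcomm]
  have hmk1 : m * k ≠ 1 := by
    intro h
    apply hkm
    have := eq_inv_of_mul_eq_one_right h
    rw [this, hinv]
  have hmkn : m * k ≠ n := by
    intro h
    apply hknm
    have h2 : k = m⁻¹ * n := by rw [← h, inv_mul_cancel_left]
    rw [h2, hinv, hcomm]
  have h1 := key (m * k) hmk1 hmkn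
  rw [map_mul, hm, key k hk1 hkn] at h1
  apply hn
  have h2 : n * m * (n * k) = (n * n) * (m * k) := by
    rw [mul_assoc, mul_assoc, ← mul_assoc m n k, hcomm m n, mul_assoc]
  rw [h2, hsq, one_mul] at h1
  have h3 : 1 * (m * k) = n * (m * k) := by rw [one_mul]; exact h1
  exact (mul_right_cancel h3).symm

/-- a point outside any four given points -/
theorem exists_fifth {Ω : Type*} [Finite Ω] (h5 : 5 ≤ Nat.card Ω) (x y z u : Ω) :
    ∃ w : Ω, w ≠ x ∧ w ≠ y ∧ w ≠ z ∧ w ≠ u := by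
  classical
  have := Fintype.ofFinite Ω
  rw [Nat.card_eq_fintype_card] at h5
  by_contra hcon
  push Not at hcon
  have h1 : (Finset.univ : Finset Ω) ⊆ {x, y, z, u} := by
    intro w _
    by_cases hx : w = x
    · simp [hx]
    · by_cases hy : w = y
      · simp [hy]
      · by_cases hz : w = z
        · simp [hz]
        · simp [hcon w hx hy hz]
  have h2 := Finset.card_le_card h1
  have h3 : ({x, y, z, u} : Finset Ω).card ≤ 4 := Finset.card_le_four
  rw [Finset.card_univ] at h2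
  omega

/-- a regular subgroup, normalised by a group `M` which is transitive on pairs, of even degree, has
exponent two. -/
theorem exp_two_of_regular {G Ω : Type*} [Group G] [Finite G] [MulAction G Ω] [Finite Ω]
    (heven : Even (Nat.card Ω)) (c : Ω) (M : Subgroup G)
    (h2t : ∀ a b c d : Ω, a ≠ b → c ≠ d → ∃ g ∈ M, g • a = c ∧ g • b = d)
    (N : Subgroup G) (hN : ∀ g ∈ M, ∀ n ∈ N, g * n * g⁻¹ ∈ N)
    (htr : ∀ x y : Ω, ∃ n ∈ N, n • x = y) (hreg : ∀ n ∈ N, ∀ x : Ω, n • x = x → n = 1) :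
    ∀ n ∈ N, n * n = 1 := by
  classical
  have hinj : ∀ c : Ω, ∀ n ∈ N, ∀ n' ∈ N, n • c = n' • c → n = n' := by
    intro c n hn n' hn' h
    have h1 : n'⁻¹ * n = 1 := by
      apply hreg _ (N.mul_mem (N.inv_mem hn') hn) c
      rw [mul_smul, h, inv_smul_smul]
    rw [inv_mul_eq_one] at h1
    exact h1.symm
  have hcard : Nat.card N = Nat.card Ω := by
    apply Nat.card_congr
    refine Equiv.ofBijective (fun n => (n : G) • c) ⟨?_, ?_⟩
    · intro n n' h
      exact Subtype.ext (hinj c _ n.2 _ n'.2 h)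
    · intro x
      obtain ⟨n, hn, hx⟩ := htr c x
      exact ⟨⟨n, hn⟩, hx⟩
  have : Fact (Nat.Prime 2) := ⟨Nat.prime_two⟩
  obtain ⟨t', ht'⟩ := exists_prime_orderOf_dvd_card' (G := N) 2 (by rw [hcard]; exact heven.two_dvd)
  obtain ⟨t, htN, rfl⟩ : ∃ t : G, ∃ h : t ∈ N, t' = ⟨t, h⟩ := ⟨t'.1, t'.2, rfl⟩
  have hto : orderOf t = 2 := by
    rw [← ht']
    exact (Subgroup.orderOf_mk t htN).symm
  have ht1 : t ≠ 1 := by
    rintro rfl
    rw [orderOf_one] at hto
    omega
  have htt : t * t = 1 := by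
    rw [← pow_two, ← hto]
    exact pow_orderOf_eq_one t
  intro n hn
  by_cases hn1 : n = 1
  · rw [hn1, one_mul]
  have htc : c ≠ t • c := fun h => ht1 (hreg t htN c h.symm)
  have hnc : c ≠ n • c := fun h => hn1 (hreg n hn c h.symm)
  obtain ⟨h, hM, hc, hh⟩ := h2t c (t • c) c (n • c) htc hnc
  have h1 : h * t * h⁻¹ = n := by
    apply hinj c _ (hN h hM t htN) _ hn
    rw [mul_smul, mul_smul, inv_smul_eq_iff.mpr hc.symm, hh]
  rw [← h1]
  calc h * t * h⁻¹ * (h * t * h⁻¹) = h * (t * t) * h⁻¹ := by group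
    _ = 1 := by rw [htt, mul_one, mul_inv_cancel]

/-- [NRG] a sharply 3-transitive group of even degree `> 4` has no regular normal subgroup. -/
theorem no_regular_normal_G {G Ω : Type*} [Group G] [Finite G] [MulAction G Ω] [Finite Ω]
    (h3t : T3 G Ω) (h3 : S3 G Ω) (heven : Even (Nat.card Ω)) (h5 : 5 ≤ Nat.card Ω)
    (N : Subgroup G) (hN : ∀ g : G, ∀ n ∈ N, g * n * g⁻¹ ∈ N)
    (htr : ∀ x y : Ω, ∃ n ∈ N, n • x = y) (hreg : ∀ n ∈ N, ∀ x : Ω, n • x = x → n = 1) : False := by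
  classical
  have h4 : 4 ≤ Nat.card Ω := by omega
  have hinj : ∀ c : Ω, ∀ n ∈ N, ∀ n' ∈ N, n • c = n' • c → n = n' := by
    intro c n hn n' hn' h
    have h1 : n'⁻¹ * n = 1 := by
      apply hreg _ (N.mul_mem (N.inv_mem hn') hn) c
      rw [mul_smul, h, inv_smul_smul]
    rw [inv_mul_eq_one] at h1
    exact h1.symm
  obtain ⟨c⟩ : Nonempty Ω := (Nat.card_pos_iff.mp (by omega : 0 < Nat.card Ω)).1
  have h2t : ∀ a b c d : Ω, a ≠ b → c ≠ d → ∃ g ∈ (⊤ : Subgroup G), g • a = c ∧ g • b = d := by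
    intro a b c d hab hcd
    obtain ⟨w, hw1, hw2, -⟩ := exists_fourth h4 a b a
    obtain ⟨w', hw1', hw2', -⟩ := exists_fourth h4 c d c
    obtain ⟨g, hga, hgb, -⟩ := h3t a b w c d w' hab hw1.symm hw2.symm hcd hw1'.symm hw2'.symm
    exact ⟨g, Subgroup.mem_top g, hga, hgb⟩
  have hsq := exp_two_of_regular heven c ⊤ h2t N (fun g _ => hN g) htr hreg
  obtain ⟨p1, hp1, -, -⟩ := exists_fourth h4 c c c
  obtain ⟨n, hn, hnc⟩ := htr c p1
  obtain ⟨p2, hp2c, hp21, -⟩ := exists_fourth h4 c p1 c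
  obtain ⟨m, hm, hmc⟩ := htr c p2
  obtain ⟨p3, hp3c, hp31, hp32, hp3nm⟩ := exists_fifth h5 c p1 p2 ((n * m) • c)
  obtain ⟨k, hk, hkc⟩ := htr c p3
  have hn1 : n ≠ 1 := by
    rintro rfl
    rw [one_smul] at hnc
    exact hp1 hnc.symm
  have hm1 : m ≠ 1 := by
    rintro rfl
    rw [one_smul] at hmc
    exact hp2c hmc.symm
  have hmn : m ≠ n := by
    rintro rfl
    exact hp21 (hmc.symm.trans hnc)
  have hnm1 : n * m ≠ 1 := by
    intro h
    apply hmn
    have h1 := hsq n hn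
    exact mul_left_cancel (h.trans h1.symm)
  have hnmc : c ≠ (n * m) • c := fun h => hnm1 (hreg _ (N.mul_mem hn hm) c h.symm)
  have hnnm : p1 ≠ (n * m) • c := by
    intro h
    rw [← hnc] at h
    have := hinj c _ hn _ (N.mul_mem hn hm) h
    apply hm1
    exact (mul_left_cancel (a := n) (by rw [mul_one]; exact this)).symm
  obtain ⟨h, hc, hh1, hh2⟩ := h3t c p1 p2 c p1 ((n * m) • c) hp1.symm hp2c.symm hp21.symm hp1.symm
    hnmc hnnm
  have hact : ∀ x : G, (h * x * h⁻¹) • c = h • (x • c) := by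
    intro x
    rw [mul_smul, mul_smul, inv_smul_eq_iff.mpr hc.symm]
  let φ : N →* N :=
    { toFun := fun x => ⟨h * x * h⁻¹, hN h _ x.2⟩
      map_one' := by
        apply Subtype.ext
        simp
      map_mul' := by
        intro x y
        apply Subtype.ext
        simp }
  have hφ : ∀ x : N, ((φ x : N) : G) = h * x * h⁻¹ := fun x => rfl
  have hφn : φ ⟨n, hn⟩ = ⟨n, hn⟩ := by
    apply Subtype.ext
    apply hinj c _ (φ ⟨n, hn⟩).2 _ hn
    rw [hφ, hact]
    show h • n • c = n • c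
    rw [hnc, hh1]
  have hφm : φ ⟨m, hm⟩ = ⟨n, hn⟩ * ⟨m, hm⟩ := by
    apply Subtype.ext
    apply hinj c _ (φ ⟨m, hm⟩).2 _ (N.mul_mem hn hm)
    rw [hφ, hact]
    show h • m • c = (n * m) • c
    rw [hmc, hh2]
  have hh1' : h ≠ 1 := by
    rintro rfl
    rw [one_smul] at hh2
    rw [← hmc] at hh2
    have := hinj c _ hm _ (N.mul_mem hn hm) hh2
    apply hn1
    exact (mul_right_cancel (b := m) (by rw [one_mul]; exact this)).symm
  have hhh : h * h = 1 := by
    apply h3 _ c p1 p2 hp1.symm hp2c.symm hp21.symm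
    · rw [mul_smul, hc, hc]
    · rw [mul_smul, hh1, hh1]
    · rw [mul_smul, hh2, ← hact]
      have h6 : h * (n * m) * h⁻¹ = ((φ (⟨n, hn⟩ * ⟨m, hm⟩) : N) : G) := rfl
      rw [h6, map_mul, hφn, hφm]
      show (n * (n * m)) • c = p2
      rw [← mul_assoc, hsq n hn, one_mul, hmc]
  have hhinv : h⁻¹ = h := inv_eq_of_mul_eq_one_left hhh
  apply false_of_exp_two (N := N) (fun x => Subtype.ext (hsq x x.2)) φ ?_ ⟨n, hn⟩ ⟨m, hm⟩ ⟨k, hk⟩
    (fun h => hn1 (congrArg Subtype.val h)) ?_ hφm ?_ ?_ ?_ ?_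
  · intro x
    apply Subtype.ext
    show h * (h * (x : G) * h⁻¹) * h⁻¹ = x
    rw [hhinv]
    calc h * (h * (x : G) * h) * h = (h * h) * x * (h * h) := by group
      _ = x := by rw [hhh, one_mul, mul_one]
  · intro y hy
    by_contra hcon
    push Not at hcon
    apply hh1'
    have hy1 : (y : G) ≠ 1 := fun h => hcon.1 (Subtype.ext h)
    have hyn : (y : G) ≠ n := fun h => hcon.2 (Subtype.ext h)
    apply h3 h c p1 ((y : G) • c) hp1.symm (fun h => hy1 (hreg _ y.2 c h.symm)) ?_ hc hh1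
    · rw [← hact]
      have : h * (y : G) * h⁻¹ = y := congrArg Subtype.val hy
      rw [this]
    · intro h
      rw [← hnc] at h
      exact hyn (hinj c _ hn _ y.2 h).symm
  · intro h
    have : k = 1 := congrArg Subtype.val h
    rw [this, one_smul] at hkc
    exact hp3c hkc.symm
  · intro h
    have : k = n := congrArg Subtype.val h
    rw [this, hnc] at hkc
    exact hp31 hkc.symm
  · intro h
    have : k = m := congrArg Subtype.val h
    rw [this, hmc] at hkc
    exact hp32 hkc.symm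
  · intro h
    have : k = n * m := congrArg Subtype.val h
    rw [this] at hkc
    exact hp3nm hkc.symm

end Cfsg.Agent.Lib.Helper76.S3O
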