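import Mathlib
import Cfsg.Agent.Lib.Helper76.S3O.Defs
import Cfsg.Agent.Lib.Helper76.S3O.FOUR
import Cfsg.Agent.Lib.Helper76.S3O.M2T
import Cfsg.Agent.Lib.Helper76.S3O.NRG

set_option autoImplicit false

namespace Cfsg.Agent.Lib.Helper76.S3O

open MulAction

/-- [NRM] a regular subgroup normalised by `M` is normalised by `G`. -/
theorem normal_of_regular_normal_M {G Ω : Type*} [Group G] [Finite G] [MulAction G Ω] [Finite Ω]
    (h3t : T3 G Ω) (h3 : S3 G Ω) (heven : Even (Nat.card Ω)) (h4 : 4 ≤ Nat.card Ω)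
    (M : Subgroup G) (hM : M.index = 2)
    (N : Subgroup G) (hNM : N ≤ M) (hN : ∀ g ∈ M, ∀ n ∈ N, g * n * g⁻¹ ∈ N)
    (htr : ∀ x y : Ω, ∃ n ∈ N, n • x = y) (hreg : ∀ n ∈ N, ∀ x : Ω, n • x = x → n = 1) :
    ∀ g : G, ∀ n ∈ N, g * n * g⁻¹ ∈ N := by
  classical
  have hMn : M.Normal := Subgroup.normal_of_index_eq_two hM
  obtain ⟨c⟩ : Nonempty Ω := (Nat.card_pos_iff.mp (by omega : 0 < Nat.card Ω)).1
  have h2t := two_trans h3t h4 M hM
  have hsq := exp_two_of_regular heven c M h2t N hN htr hreg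
  have hinvN : ∀ x ∈ N, x⁻¹ = x := fun x hx => inv_eq_of_mul_eq_one_left (hsq x hx)
  have hcomm : ∀ x ∈ N, ∀ y ∈ N, x * y = y * x := by
    intro x hx y hy
    have h2 : x * y = (x * y)⁻¹ := (hinvN _ (N.mul_mem hx hy)).symm
    rw [h2, mul_inv_rev, hinvN x hx, hinvN y hy]
  intro g n0 hn0
  set N' : Subgroup G := N.comap (MulAut.conj g⁻¹).toMonoidHom with hN'
  have hN'mem : ∀ x, x ∈ N' ↔ g⁻¹ * x * g ∈ N := by
    intro x
    simp [hN', Subgroup.mem_comap, MulAut.conj_apply]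
  have hx : g * n0 * g⁻¹ ∈ N' := by
    rw [hN'mem]
    have : g⁻¹ * (g * n0 * g⁻¹) * g = n0 := by group
    rw [this]
    exact hn0
  have hN'M : N' ≤ M := by
    intro x hx
    rw [hN'mem] at hx
    have h1 := hMn.conj_mem _ (hNM hx) g
    have h2 : g * (g⁻¹ * x * g) * g⁻¹ = x := by group
    rwa [h2] at h1
  have hN'n : ∀ m ∈ M, ∀ x ∈ N', m * x * m⁻¹ ∈ N' := by
    intro m hm x hx
    rw [hN'mem] at hx ⊢
    have h1 : g⁻¹ * m * g ∈ M := by
      have := hMn.conj_mem _ hm g⁻¹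
      rwa [inv_inv] at this
    have h2 := hN _ h1 _ hx
    have h5 : g⁻¹ * m * g * (g⁻¹ * x * g) * (g⁻¹ * m * g)⁻¹ = g⁻¹ * (m * x * m⁻¹) * g := by group
    rwa [h5] at h2
  have hN'reg : ∀ x ∈ N', ∀ z : Ω, x • z = z → x = 1 := by
    intro x hx z hz
    rw [hN'mem] at hx
    have h1 := hreg _ hx (g⁻¹ • z) (by rw [mul_smul, mul_smul, smul_inv_smul, hz])
    have h2 : x = g * (g⁻¹ * x * g) * g⁻¹ := by group
    rw [h2, h1]
    group
  have hinj' : ∀ n ∈ N', ∀ n' ∈ N', n • c = n' • c → n = n' := by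
    intro n hn n' hn' h
    have h1 : n'⁻¹ * n = 1 := by
      apply hN'reg _ (N'.mul_mem (N'.inv_mem hn') hn) c
      rw [mul_smul, h, inv_smul_smul]
    rw [inv_mul_eq_one] at h1
    exact h1.symm
  generalize g * n0 * g⁻¹ = x at hx
  by_cases hx1 : x = 1
  · rw [hx1]
    exact N.one_mem
  by_cases hcase : ∃ y, y ≠ 1 ∧ y ∈ N ∧ y ∈ N'
  · obtain ⟨y, hy1, hyN, hyN'⟩ := hcase
    have hyc : c ≠ y • c := fun h => hy1 (hreg y hyN c h.symm)
    have hxc : c ≠ x • c := fun h => hx1 (hN'reg x hx c h.symm)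
    obtain ⟨h, hhM, hc, hh⟩ := h2t c (y • c) c (x • c) hyc hxc
    have h1 : h * y * h⁻¹ = x := by
      apply hinj' _ (hN'n h hhM y hyN') _ hx
      rw [mul_smul, mul_smul, inv_smul_eq_iff.mpr hc.symm, hh]
    rw [← h1]
    exact hN h hhM y hyN
  · push Not at hcase
    have hcm : ∀ n ∈ N, x * n = n * x := by
      intro n hn
      by_contra hne
      have h1 : x * n * x⁻¹ * n⁻¹ ≠ 1 := by
        intro h
        apply hne
        rw [mul_inv_eq_one, mul_inv_eq_iff_eq_mul] at h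
        exact h
      apply hcase _ h1
      · exact N.mul_mem (hN x (hN'M hx) n hn) (N.inv_mem hn)
      · have h2 := hN'n n (hNM hn) x⁻¹ (N'.inv_mem hx)
        have h5 := N'.mul_mem hx h2
        have h6 : x * (n * x⁻¹ * n⁻¹) = x * n * x⁻¹ * n⁻¹ := by group
        rwa [h6] at h5
    obtain ⟨n, hn, hnc⟩ := htr c (x • c)
    have hfix : ∀ z : Ω, (n⁻¹ * x) • z = z := by
      intro z
      obtain ⟨n', hn', rfl⟩ := htr c z
      rw [← mul_smul, mul_assoc, hcm n' hn', ← mul_assoc, hcomm _ (N.inv_mem hn) _ hn', mul_assoc,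
        mul_smul, mul_smul, ← hnc, inv_smul_smul]
    obtain ⟨d, hdc, -, -⟩ := exists_fourth h4 c c c
    obtain ⟨e, hec, hed, -⟩ := exists_fourth h4 c d c
    have h7 : n⁻¹ * x = 1 := h3 _ c d e hdc.symm hec.symm hed.symm (hfix c) (hfix d) (hfix e)
    rw [inv_mul_eq_one] at h7
    rw [← h7]
    exact hn

end Cfsg.Agent.Lib.Helper76.S3O
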