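import Mathlib
import Cfsg.Agent.Lib.Helper76.S3O.Defs
import Cfsg.Agent.Lib.Helper76.S3O.FOUR
import Cfsg.Agent.S0266
import Cfsg.Agent.S0699

set_option autoImplicit false

namespace Cfsg.Agent.Lib.Helper76.S3O

open MulAction

theorem eq_of_card_four {Ω : Type*} [Finite Ω] (h : Nat.card Ω = 4) {a b c x y : Ω}
    (hab : a ≠ b) (hac : a ≠ c) (hbc : b ≠ c) (hxa : x ≠ a) (hxb : x ≠ b) (hxc : x ≠ c)
    (hya : y ≠ a) (hyb : y ≠ b) (hyc : y ≠ c) : x = y := by
  classical
  have := Fintype.ofFinite Ω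
  rw [Nat.card_eq_fintype_card] at h
  by_contra hxy
  have h5 : ({a, b, c, x, y} : Finset Ω).card = 5 := by
    rw [Finset.card_insert_of_notMem, Finset.card_insert_of_notMem, Finset.card_insert_of_notMem,
      Finset.card_pair hxy]
    · simp [hxc.symm, hyc.symm]
    · simp [hbc, hxb.symm, hyb.symm]
    · simp [hab, hac, hxa.symm, hya.symm]
  have h6 := Finset.card_le_univ ({a, b, c, x, y} : Finset Ω)
  omega

/-- a sharply triply transitive group of degree four is the full symmetric group. -/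
theorem toPermHom_bijective_of_four {G Ω : Type*} [Group G] [MulAction G Ω] [Finite Ω]
    (h3t : T3 G Ω) (h3 : S3 G Ω) (h4 : Nat.card Ω = 4) :
    Function.Bijective (MulAction.toPermHom G Ω) := by
  obtain ⟨a⟩ : Nonempty Ω := (Nat.card_pos_iff.mp (by omega : 0 < Nat.card Ω)).1
  obtain ⟨b, hba, -, -⟩ := exists_fourth (by omega) a a a
  obtain ⟨c, hca, hcb, -⟩ := exists_fourth (by omega) a b a
  constructor
  · rw [injective_iff_map_eq_one]
    intro g hg
    have h1 : ∀ x : Ω, g • x = x := by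
      intro x
      have := congrArg (fun σ : Equiv.Perm Ω => σ x) hg
      exact this
    exact h3 g a b c hba.symm hca.symm hcb.symm (h1 a) (h1 b) (h1 c)
  · intro σ
    obtain ⟨g, hga, hgb, hgc⟩ := h3t a b c (σ a) (σ b) (σ c) hba.symm hca.symm hcb.symm
      (σ.injective.ne hba.symm) (σ.injective.ne hca.symm) (σ.injective.ne hcb.symm)
    refine ⟨g, ?_⟩
    ext x
    show g • x = σ x
    by_cases hxa : x = a
    · rw [hxa, hga]
    by_cases hxb : x = b
    · rw [hxb, hgb]
    by_cases hxc : x = c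
    · rw [hxc, hgc]
    apply eq_of_card_four h4 (σ.injective.ne hba.symm) (σ.injective.ne hca.symm)
      (σ.injective.ne hcb.symm)
    · rw [← hga]; exact fun h => hxa (smul_left_cancel _ h)
    · rw [← hgb]; exact fun h => hxb (smul_left_cancel _ h)
    · rw [← hgc]; exact fun h => hxc (smul_left_cancel _ h)
    · exact σ.injective.ne hxa
    · exact σ.injective.ne hxb
    · exact σ.injective.ne hxc

/-- [Q3] degree four. -/
theorem pgl_of_four {G Ω : Type*} [Group G] [Finite G] [MulAction G Ω] [Finite Ω]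
    (h3t : T3 G Ω) (h3 : S3 G Ω) (h4 : Nat.card Ω = 4) :
    Nonempty (G ≃* Matrix.ProjGenLinGroup (Fin 2) (ZMod 3)) := by
  have : Fact (Nat.Prime 3) := ⟨Nat.prime_three⟩
  obtain ⟨hA, hB⟩ := Cfsg.Agent.S0266.result (F := ZMod 3)
  rw [Cfsg.Agent.S0699.three_iff] at hA
  have hc : Nat.card (Projectivization (ZMod 3) (Fin 2 → ZMod 3)) = 4 := by
    have h1 : Module.finrank (ZMod 3) (Fin 2 → ZMod 3) = 2 := by simp
    rw [Projectivization.card_of_finrank_two (ZMod 3) (Fin 2 → ZMod 3) h1,
      Nat.card_eq_fintype_card, ZMod.card]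
  have e1 := MulEquiv.ofBijective _ (toPermHom_bijective_of_four h3t h3 h4)
  have e2 := MulEquiv.ofBijective _ (toPermHom_bijective_of_four hA hB hc)
  have e3 : Ω ≃ Projectivization (ZMod 3) (Fin 2 → ZMod 3) :=
    (Finite.equivFinOfCardEq h4).trans (Finite.equivFinOfCardEq hc).symm
  exact ⟨e1.trans (e3.permCongrHom.trans e2.symm)⟩

end Cfsg.Agent.Lib.Helper76.S3O
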