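import Mathlib
import Cfsg.Agent.Lib.Helper76.S3O.Defs
import Cfsg.Agent.Lib.Helper76.S3O.FOUR
import Cfsg.Agent.Lib.Helper76.S3O.M2T
import Cfsg.Agent.Lib.Helper76.S3O.CARDM
import Cfsg.Agent.Lib.Helper76.S3O.NRG
import Cfsg.Agent.Lib.Helper76.S3O.NRM
import Cfsg.Prelude.Def_LieExceptional

set_option autoImplicit false

namespace Cfsg.Agent.Lib.Helper76.S3O

open MulAction

/-- [ZAS] the subgroup of index two is a Zassenhaus group. -/
theorem isZassenhaus {G Ω : Type*} [Group G] [Finite G] [MulAction G Ω] [Finite Ω]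
    (h3t : T3 G Ω) (h3 : S3 G Ω) (heven : Even (Nat.card Ω)) (h6 : 6 ≤ Nat.card Ω)
    (M : Subgroup G) (hM : M.index = 2) : Cfsg.IsZassenhausGroup ↥M Ω := by
  classical
  have h4 : 4 ≤ Nat.card Ω := by omega
  obtain ⟨c⟩ : Nonempty Ω := (Nat.card_pos_iff.mp (by omega : 0 < Nat.card Ω)).1
  obtain ⟨d, hdc, -, -⟩ := exists_fourth h4 c c c
  obtain ⟨e, hec, hed, -⟩ := exists_fourth h4 c d c
  refine ⟨⟨?_⟩, ?_, ?_, ?_, ?_⟩
  · intro m m' h
    have h1 : ((m' : G)⁻¹ * (m : G)) = 1 := by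
      apply h3 _ c d e hdc.symm hec.symm hed.symm
      · rw [mul_smul, inv_smul_eq_iff]; exact h c
      · rw [mul_smul, inv_smul_eq_iff]; exact h d
      · rw [mul_smul, inv_smul_eq_iff]; exact h e
    rw [inv_mul_eq_one] at h1
    exact Subtype.ext h1.symm
  · rw [is_two_pretransitive_iff]
    intro a b a' b' hab hab'
    obtain ⟨g, hg, h1, h2⟩ := two_trans h3t h4 M hM a b a' b' hab hab'
    exact ⟨⟨g, hg⟩, h1, h2⟩
  · intro g a b c hab hbc hac ha hb hc
    exact Subtype.ext (h3 (g : G) a b c hab hac hbc ha hb hc)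
  · have h1 := card_stabM h3t h3 h4 M hM hdc.symm
    have h2 : 1 < Nat.card ↥(stabilizer ↥M c ⊓ stabilizer ↥M d) := by omega
    rw [Finite.one_lt_card_iff_nontrivial] at h2
    obtain ⟨g, hg⟩ := exists_ne (1 : ↥(stabilizer ↥M c ⊓ stabilizer ↥M d))
    have h5 := g.2
    rw [Subgroup.mem_inf, mem_stabilizer_iff, mem_stabilizer_iff] at h5
    exact ⟨g, fun h => hg (Subtype.ext h), c, d, hdc.symm, h5.1, h5.2⟩
  · intro N hN htr
    by_contra hcon
    push Not at hcon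
    have hmem : ∀ x : G, x ∈ N.map M.subtype ↔ ∃ h : x ∈ M, (⟨x, h⟩ : ↥M) ∈ N := by
      intro x
      rw [Subgroup.mem_map]
      constructor
      · rintro ⟨y, hy, rfl⟩
        exact ⟨y.2, hy⟩
      · rintro ⟨h, hx⟩
        exact ⟨⟨x, h⟩, hx, rfl⟩
    have hNM : N.map M.subtype ≤ M := by
      intro x hx
      exact ((hmem x).mp hx).1
    have hNn : ∀ g ∈ M, ∀ n ∈ N.map M.subtype, g * n * g⁻¹ ∈ N.map M.subtype := by
      intro g hg n hn
      obtain ⟨hnM, hnN⟩ := (hmem n).mp hn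
      rw [hmem]
      exact ⟨M.mul_mem (M.mul_mem hg hnM) (M.inv_mem hg), hN.conj_mem _ hnN ⟨g, hg⟩⟩
    have htr' : ∀ x y : Ω, ∃ n ∈ N.map M.subtype, n • x = y := by
      intro x y
      obtain ⟨n, hn⟩ := htr.exists_smul_eq x y
      exact ⟨((n : ↥M) : G), (hmem _).mpr ⟨(n : ↥M).2, n.2⟩, hn⟩
    have hreg' : ∀ n ∈ N.map M.subtype, ∀ x : Ω, n • x = x → n = 1 := by
      intro n hn x hx
      obtain ⟨hnM, hnN⟩ := (hmem n).mp hn
      have h1 : (⟨⟨n, hnM⟩, hnN⟩ : ↥N) ∈ stabilizer ↥N x := by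
        rw [mem_stabilizer_iff]
        exact hx
      rw [hcon x, Subgroup.mem_bot] at h1
      exact congrArg (fun z : ↥N => ((z : ↥M) : G)) h1
    exact no_regular_normal_G h3t h3 heven (by omega) (N.map M.subtype)
      (normal_of_regular_normal_M h3t h3 heven h4 M hM _ hNM hNn htr' hreg') htr' hreg'

end Cfsg.Agent.Lib.Helper76.S3O
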